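import Cfsg.Agent.H470.EPK.Comb

/-!
# Upper bounds for centralizers of semisimple elements (T*, S5745; helper82)

`R : RGD cs h p T n X`, `x ∈ L_J` of order a power of the prime `r ≠ p`, `x` in no conjugate of `P_J'` for `J' ⊊ J`.

* `stab_of_mem` : `x ∈ P_J ∩ m P_J m⁻¹` (`m` over `w`) implies `w⁻¹ Φ_J ⊆ Φ_J`;
* `card_fix_le` : `#{g P_J : x ∈ g P_J g⁻¹} ≤ ∑_{w J = J} |C_{V_J}(x) : C_{V_J ∩ wP_J}(x)|`;
* `star` : `|C(x)| ≤ |C_{L_J}(x)| |C_{V_J}(x)| ∑_{w J = J} |C_{V_J}(x) : C_{V_J ∩ wP_J}(x)|`.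
-/

set_option autoImplicit false
set_option linter.unusedSectionVars false

namespace Cfsg.Agent.H82.TS

open CoxeterSystem Cfsg.Agent.ChevalleyStructure.CoxeterGeom Cfsg.Agent.Tits.Roots Cfsg.Agent.Tits.Core
  Cfsg.Agent.Tits.RootComb Cfsg.Agent.Tits.Exchange Cfsg.Agent.Nodes.Reps Cfsg.Agent.Nodes.BNOf
  Cfsg.Agent.Nodes.StabComb Cfsg.Agent.Nodes.Bruhat Cfsg.Agent.Nodes.OppDec Cfsg.Agent.Nodes.LeviDec
  Cfsg.Agent.KFacts.RgdPar

/-! ### Coprime action on a coset -/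

theorem exists_fixed {Y : Type*} [Group Y] [Finite Y] {r k : ℕ} [hr : Fact r.Prime] {x : Y} (hx : x ^ r ^ k = 1)
    (D : Subgroup Y) (hD : ¬ r ∣ Nat.card D) (hxD : ∀ d ∈ D, x * d * x⁻¹ ∈ D) (v : Y)
    (hv : v⁻¹ * (x * v * x⁻¹) ∈ D) : ∃ c : Y, v⁻¹ * c ∈ D ∧ x * c = c * x := by
  classical
  let S := {c : Y // v⁻¹ * c ∈ D}
  have hfin : Finite S := inferInstance
  let _ : Fintype S := Fintype.ofFinite S
  let f : Function.End S := fun c => ⟨x * c.1 * x⁻¹, by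
    have h1 : v⁻¹ * (x * c.1 * x⁻¹) = (v⁻¹ * (x * v * x⁻¹)) * (x * (v⁻¹ * c.1) * x⁻¹) := by group
    rw [h1]
    exact D.mul_mem hv (hxD _ c.2)⟩
  have hf : ∀ (m : ℕ) (c : S), ((f ^ m) c).1 = x ^ m * c.1 * (x ^ m)⁻¹ := by
    intro m
    induction m with
    | zero => intro c; rw [pow_zero, pow_zero]; change c.1 = _; group
    | succ m ih =>
      intro c
      rw [pow_succ]
      change ((f ^ m) (f c)).1 = _
      rw [ih]
      change x ^ m * (x * c.1 * x⁻¹) * (x ^ m)⁻¹ = _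
      rw [pow_succ]; group
  have hf1 : f ^ r ^ k = 1 := by
    funext c
    apply Subtype.ext
    rw [hf, hx]
    change _ = c.1
    group
  have h1 := Equiv.Perm.card_fixedPoints_modEq hf1
  have h2 : Fintype.card S = Nat.card D := by
    rw [← Nat.card_eq_fintype_card]
    refine Nat.card_congr ⟨fun c => ⟨v⁻¹ * c.1, c.2⟩, fun d => ⟨v * d.1, ?_⟩, ?_, ?_⟩
    · rw [inv_mul_cancel_left]; exact d.2
    · intro c; exact Subtype.ext (by simp)
    · intro d; exact Subtype.ext (by simp)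
  rw [h2] at h1
  have h3 : 0 < Fintype.card f.fixedPoints := by
    by_contra h4
    have h5 : Fintype.card f.fixedPoints = 0 := by omega
    rw [h5] at h1
    exact hD ((Nat.modEq_zero_iff_dvd).1 h1)
  obtain ⟨c, hc⟩ := Fintype.card_pos_iff.1 h3
  have hc' : f c = c := hc
  refine ⟨c.1, c.2, ?_⟩
  have h4 : x * c.1 * x⁻¹ = c.1 := congrArg Subtype.val hc'
  exact mul_inv_eq_iff_eq_mul.1 h4

variable {I W Y : Type*} [Fintype I] [DecidableEq I] [Group W] [Group Y] {M : CoxeterMatrix I}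
  {cs : CoxeterSystem M W} {A : I → I → ℤ} {h : IsCartan M A} {p : ℕ} {T : Subgroup Y} {n : I → Y}
  {X : (I → ℤ) → Subgroup Y}

/-- the height outside `J` -/
noncomputable def htJ (J : Set I) : (I → ℤ) →+ ℤ :=
  { toFun := fun x => ∑ k, (open Classical in if k ∈ J then 0 else x k)
    map_zero' := by simp
    map_add' := fun x y => by
      classical
      rw [← Finset.sum_add_distrib]
      refine Finset.sum_congr rfl fun k _ => ?_
      by_cases hk : k ∈ J <;> simp [hk] }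

theorem htJ_apply (J : Set I) (x : I → ℤ) : htJ J x = ∑ k, (open Classical in if k ∈ J then 0 else x k) := rfl

theorem htJ_sr (J : Set I) (i : I) : htJ J (sr i) = open Classical in if i ∈ J then 0 else 1 := by
  classical
  rw [htJ_apply, Finset.sum_eq_single i]
  · rw [sr_self]
  · intro k _ hk
    rw [sr_ne hk]; simp
  · intro hi
    exact absurd (Finset.mem_univ i) hi

theorem htJ_sr_nonneg (J : Set I) (i : I) : 0 ≤ htJ J (sr i) := by
  rw [htJ_sr]; split_ifs <;> simp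

theorem htJ_zero (J : Set I) : {i | htJ J (sr i) = 0} = J := by
  ext i
  simp only [Set.mem_ofPred_eq, htJ_sr]
  by_cases hi : i ∈ J <;> simp [hi]

theorem PS_htJ (J : Set I) : PS T X (Half cs h (htJ J)) = PJ cs h T X J := by
  have := PS_half_of_dom (cs := cs) (h := h) (T := T) (X := X) (htJ_sr_nonneg J)
  rwa [htJ_zero] at this

theorem rootsJ_htJ (J : Set I) : RootsJ cs h J = {x | IsRoot cs h x ∧ htJ J x = 0} := by
  have := rootsJ_eq (cs := cs) (h := h) (htJ_sr_nonneg J)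
  rwa [htJ_zero] at this

variable (R : RGD cs h p T n X)

include R

/-- `x` lies in no conjugate of `P_J'`, `J' ⊊ J` -/
def Ell (cs : CoxeterSystem M W) (h : IsCartan M A) (T : Subgroup Y) (X : (I → ℤ) → Subgroup Y) (J : Set I) (x : Y) :
    Prop := ∀ J' ⊆ J, ∀ g : Y, x ∈ cj g (PJ cs h T X J') → J' = J

omit R in
theorem Ell.conj {J : Set I} {x : Y} (hx : Ell cs h T X J x) (a : Y) : Ell cs h T X J (a⁻¹ * x * a) := by
  intro J' hJ' g hg
  refine hx J' hJ' (a * g) ?_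
  rw [cj_mul]
  have h1 := (conj_mem_cj (g := a) (A := cj g (PJ cs h T X J'))).2 hg
  have h2 : a * (a⁻¹ * x * a) * a⁻¹ = x := by group
  rwa [h2] at h1

omit R in
theorem Ell.conj' {J : Set I} {x : Y} (hx : Ell cs h T X J x) (a : Y) : Ell cs h T X J (a * x * a⁻¹) := by
  have := hx.conj a⁻¹
  rwa [inv_inv] at this

/-- `x ∈ P_J ∩ m P_J m⁻¹` implies `w⁻¹ Φ_J ⊆ Φ_J` -/
theorem stab_of_mem [Finite W] {J : Set I} {x : Y} (hell : Ell cs h T X J x) (hx : x ∈ PJ cs h T X J) {w : W} {m : Y}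
    (hm : Rp cs R.nsys w m) (hxm : x ∈ cj m (PJ cs h T X J)) (hw : ∀ i ∈ J, 0 ≤ rep cs h w⁻¹ (sr i)) {i : I}
    (hi : i ∈ J) : rep cs h w⁻¹ (sr i) ∈ RootsJ cs h J := by
  classical
  set f := htJ (I := I) J with hf
  set g := pull cs h f w⁻¹ with hg
  -- `x ∈ PS Ω`
  have h1 : x ∈ PS T X {z | IsRoot cs h z ∧ ∀ φ ∈ [f, g], 0 ≤ φ z} := by
    refine (inter R [f, g] (PJ_le_GG hx) fun φ hφ => ?_).1
    simp only [List.mem_cons, List.not_mem_nil, or_false] at hφ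
    rcases hφ with rfl | rfl
    · rw [PS_htJ]; exact hx
    · rw [← PS_htJ, cj_PS R hm (fun z hz => hz.1)] at hxm
      refine PS_mono (fun z hz => ?_) hxm
      have hz' : rep cs h w⁻¹ z ∈ Half cs h f := hz
      refine ⟨?_, hz'.2⟩
      have := hz'.1.act w
      rwa [rep_apply_inv] at this
  -- a bound for `g`
  obtain ⟨N, hN, hN2⟩ := exists_bound (cs := cs) (h := h) g
  have hgi : ∀ i ∈ J, 0 ≤ g (sr i) := fun i hi => dom_nonneg (htJ_sr_nonneg J) (hw i hi)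
  have hfi : ∀ i ∈ J, f (sr i) = 0 := fun i hi => by rw [hf, htJ_sr, if_pos hi]
  have hfo : ∀ i, i ∉ J → f (sr i) = 1 := fun i hi => by rw [hf, htJ_sr, if_neg hi]
  set l : (I → ℤ) →+ ℤ := N • f + g with hl
  have hlap : ∀ z, l z = N * f z + g z := fun z => by
    rw [hl, AddMonoidHom.add_apply, AddMonoidHom.smul_apply, smul_eq_mul]
  have hlo : ∀ i, i ∉ J → 0 < l (sr i) := by
    intro i hi
    rw [hlap, hfo i hi]
    have := hN2 _ (isRoot_sr cs h i)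
    rw [abs_lt] at this
    omega
  have hli : ∀ i ∈ J, l (sr i) = g (sr i) := by
    intro i hi
    rw [hlap, hfi i hi]
    omega
  have hl0 : ∀ i, 0 ≤ l (sr i) := by
    intro i
    by_cases hi : i ∈ J
    · rw [hli i hi]; exact hgi i hi
    · exact (hlo i hi).le
  have h2 : x ∈ PJ cs h T X {i | l (sr i) = 0} := by
    rw [← PS_half_of_dom (cs := cs) (h := h) (T := T) (X := X) hl0]
    refine PS_mono (Ω' := Half cs h l) ?_ h1
    intro z hz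
    refine ⟨hz.1, ?_⟩
    have ha := hz.2 f (by simp)
    have hb := hz.2 g (by simp)
    rw [hlap]
    exact add_nonneg (mul_nonneg hN.le ha) hb
  have h3 : {i | l (sr i) = 0} ⊆ J := by
    intro i hi
    by_contra hiJ
    have := hlo i hiJ
    rw [hi] at this
    exact lt_irrefl _ this
  have h4 := hell _ h3 1 (by rwa [cj_one])
  have h5 : i ∈ {i | l (sr i) = 0} := by rw [h4]; exact hi
  have h6 : g (sr i) = 0 := by
    rw [← hli i hi]; exact h5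
  rw [rootsJ_htJ]
  exact ⟨(isRoot_sr cs h i).act _, h6⟩

omit R in
/-- the elements of `W` stabilising the positive roots of `J` -/
def NJ (cs : CoxeterSystem M W) (h : IsCartan M A) (J : Set I) : Set W :=
  {w | (∀ i ∈ J, rep cs h w⁻¹ (sr i) ∈ PosJ cs h J) ∧ ∀ i ∈ J, rep cs h w (sr i) ∈ PosJ cs h J}

omit R in
theorem roots_of_NJ {J : Set I} {w : W} (hw : w ∈ NJ cs h J) {x : I → ℤ} (hx : x ∈ RootsJ cs h J) :
    rep cs h w x ∈ RootsJ cs h J :=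
  H470.EPK.preserve (fun j hj => PosJ_subset _ (hw.2 j hj)) hx

omit R in
theorem inv_NJ {J : Set I} {w : W} (hw : w ∈ NJ cs h J) : w⁻¹ ∈ NJ cs h J :=
  ⟨fun i hi => by rw [inv_inv]; exact hw.2 i hi, fun i hi => hw.1 i hi⟩

theorem cj_LJ {J : Set I} {w : W} {m : Y} (hm : Rp cs R.nsys w m) (hw : w ∈ NJ cs h J) :
    cj m (LJ cs h T X J) = LJ cs h T X J := by
  unfold LJ
  rw [cj_sup, cj_T R hm, cj_Sup_eq R hm (fun x hx => hx.1)]
  congr 2
  ext x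
  constructor
  · intro hx
    have hx' : rep cs h w⁻¹ x ∈ RootsJ cs h J := hx
    have := roots_of_NJ hw hx'
    rwa [rep_apply_inv] at this
  · intro hx
    exact roots_of_NJ (inv_NJ hw) hx

/-- the cosets `g P_J` with `x ∈ g P_J g⁻¹` -/
theorem exists_form [Finite W] [Finite Y] {J : Set I} {x : Y} {r k : ℕ} [hr : Fact r.Prime] (hx : x ^ r ^ k = 1)
    (hrV : ¬ r ∣ Nat.card (VJ cs h X J)) (hell : Ell cs h T X J x) (hxL : x ∈ LJ cs h T X J) (m : W → Y)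
    (hm : ∀ w, Rp cs R.nsys w (m w)) {g : Y} (hgG : g ∈ GG cs h T X) (hg : x ∈ cj g (PJ cs h T X J)) :
    ∃ w ∈ NJ cs h J, ∃ c ∈ VJ cs h X J, x * c = c * x ∧ (c * m w)⁻¹ * g ∈ PJ cs h T X J := by
  obtain ⟨w0, hc⟩ := (mem_GG R).1 hgG
  obtain ⟨b, hb, m0, hm0, b', hb', rfl⟩ := hc
  obtain ⟨u, hu, u', hu', h1, h2⟩ := H470.EPK.exists_red (cs := cs) (h := h) J _ w0 rfl
  obtain ⟨a, ha⟩ := exists_rp cs R.nsys u
  obtain ⟨a', ha'⟩ := exists_rp cs R.nsys u'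
  set w := u * w0 * u' with hw
  have hm1 : Rp cs R.nsys w (a * m0 * a') := (ha.mul hm0).mul ha'
  have ht : (m w)⁻¹ * (a * m0 * a') ∈ T := (hm w).unique hm1
  have hTP : T ≤ PJ cs h T X J := T_le_LJ.trans LJ_le_PJ
  -- `g = y m_w y'`
  obtain ⟨y, hy, y', hy', e⟩ : ∃ y ∈ PJ cs h T X J, ∃ y' ∈ PJ cs h T X J, b * m0 * b' = y * m w * y' := by
    refine ⟨b * a⁻¹, mul_mem (B_le_PJ hb) (inv_mem (LJ_le_PJ (rp_mem_LJ R hu ha))),
      ((m w)⁻¹ * (a * m0 * a')) * (a'⁻¹ * b'),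
      mul_mem (hTP ht) (mul_mem (inv_mem (LJ_le_PJ (rp_mem_LJ R hu' ha'))) (B_le_PJ hb')), by group⟩
  rw [e] at hg ⊢
  have hg1 : x ∈ cj (y * m w) (PJ cs h T X J) := by
    rwa [cj_mul, cj_eq_of_mem hy'] at hg
  have hxP : x ∈ PJ cs h T X J := LJ_le_PJ hxL
  have hg2 : y⁻¹ * x * y ∈ cj (m w) (PJ cs h T X J) := by
    rw [cj_mul] at hg1
    exact mem_cj.1 hg1
  have hyx : y⁻¹ * x * y ∈ PJ cs h T X J := mul_mem (mul_mem (inv_mem hy) hxP) hy
  have h3 : ∀ i ∈ J, rep cs h w⁻¹ (sr i) ∈ RootsJ cs h J := fun i hi =>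
    stab_of_mem R (hell.conj y) hyx (hm w) hg2 h2 hi
  have h3' : ∀ i ∈ J, rep cs h w (sr i) ∈ RootsJ cs h J := fun i hi => by
    have := H470.EPK.preserve_inv (fun x hx => H470.EPK.preserve h3 hx) (PosJ_subset _ (sr_mem_PosJ (cs := cs) (h := h) hi))
    rwa [inv_inv] at this
  have hwN : w ∈ NJ cs h J :=
    ⟨fun i hi => ⟨(h3 i hi).1, h2 i hi, (h3 i hi).2⟩, fun i hi => ⟨(h3' i hi).1, h1 i hi, (h3' i hi).2⟩⟩
  have hL : cj (m w) (LJ cs h T X J) = LJ cs h T X J := cj_LJ R (hm w) hwN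
  -- `y = v l`
  obtain ⟨v, hv, l, hl, rfl⟩ : ∃ v ∈ VJ cs h X J, ∃ l ∈ LJ cs h T X J, y = v * l := by
    obtain ⟨l, hl, v, hv, e1⟩ := (mem_PJ R).1 hy
    refine ⟨l * v * l⁻¹, (Subgroup.mem_normalizer_iff.1 (LJ_le_normalizer_VJ R J hl) v).1 hv, l, hl, ?_⟩
    rw [e1]; group
  have hl' : (m w)⁻¹ * l * m w ∈ LJ cs h T X J := by
    rw [← hL] at hl
    exact mem_cj.1 hl
  have hl2 : l ∈ cj (m w) (PJ cs h T X J) := cj_mono _ LJ_le_PJ (by rw [hL]; exact hl)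
  have hx2 : x ∈ cj (m w) (PJ cs h T X J) := cj_mono _ LJ_le_PJ (by rw [hL]; exact hxL)
  have hg3 : v⁻¹ * x * v ∈ cj (m w) (PJ cs h T X J) := by
    have h5 : v⁻¹ * x * v = l * ((v * l)⁻¹ * x * (v * l)) * l⁻¹ := by group
    rw [h5]
    exact mul_mem (mul_mem hl2 hg2) (inv_mem hl2)
  have hxn : ∀ z, z ∈ VJ cs h X J ↔ x * z * x⁻¹ ∈ VJ cs h X J :=
    Subgroup.mem_normalizer_iff.1 (LJ_le_normalizer_VJ R J hxL)
  set D : Subgroup Y := VJ cs h X J ⊓ cj (m w) (PJ cs h T X J) with hD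
  have hDr : ¬ r ∣ Nat.card D := fun h6 => hrV (h6.trans (Subgroup.card_dvd_of_le inf_le_left))
  obtain ⟨c, hc1, hc2⟩ := exists_fixed hx D hDr (fun d hd => ⟨(hxn d).1 hd.1, Subgroup.mul_mem _ (Subgroup.mul_mem _ hx2 hd.2) (Subgroup.inv_mem _ hx2)⟩)
    v ⟨by
      have h6 : v⁻¹ * (x * v * x⁻¹) = v⁻¹ * (x * v * x⁻¹) := rfl
      exact Subgroup.mul_mem _ (Subgroup.inv_mem _ hv) ((hxn v).1 hv), by
      have h6 : v⁻¹ * (x * v * x⁻¹) = (v⁻¹ * x * v) * x⁻¹ := by group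
      rw [h6]
      exact Subgroup.mul_mem _ hg3 (Subgroup.inv_mem _ hx2)⟩
  refine ⟨w, hwN, c, ?_, hc2, ?_⟩
  · have h6 : c = v * (v⁻¹ * c) := by group
    rw [h6]
    exact mul_mem hv hc1.1
  · have h6 : (c * m w)⁻¹ * (v * l * m w * y') =
        ((m w)⁻¹ * (v⁻¹ * c)⁻¹ * m w) * ((m w)⁻¹ * l * m w) * y' := by group
    rw [h6]
    refine mul_mem (mul_mem ?_ (LJ_le_PJ hl')) hy'
    exact mem_cj.1 (inv_mem hc1.2)

/-! ### counting -/

omit R in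
/-- the centralizer of `x` -/
abbrev Cx (x : Y) : Subgroup Y := Subgroup.centralizer {x}

omit R in
theorem mem_Cx {x c : Y} : c ∈ Cx x ↔ x * c = c * x := by
  rw [Subgroup.mem_centralizer_singleton_iff]
  exact ⟨fun h => h.symm, fun h => h.symm⟩

/-- **T\***: `|C(x) : C_{P_J}(x)| ≤ ∑_{w J = J} |C_{V_J}(x) : C_{V_J}(x) ∩ m_w P_J m_w⁻¹|` -/
theorem relIndex_le [Finite W] [Finite Y] {J : Set I} {x : Y} {r k : ℕ} [hr : Fact r.Prime] (hx : x ^ r ^ k = 1)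
    (hrV : ¬ r ∣ Nat.card (VJ cs h X J)) (hell : Ell cs h T X J x) (hxL : x ∈ LJ cs h T X J) (m : W → Y)
    (hm : ∀ w, Rp cs R.nsys w (m w)) (hG : Cx x ≤ GG cs h T X) (S : Finset W) (hS : ∀ w ∈ NJ cs h J, w ∈ S) :
    (PJ cs h T X J).relIndex (Cx x) ≤
      ∑ w ∈ S, (cj (m w) (PJ cs h T X J)).relIndex (Cx x ⊓ VJ cs h X J) := by
  classical
  set P := PJ cs h T X J with hP
  set V := Cx x ⊓ VJ cs h X J with hV
  have h0 : ∀ q : (Cx x) ⧸ P.subgroupOf (Cx x), ∃ w : S, ∃ c : V, (c.1 * m w.1)⁻¹ * (q.out).1 ∈ P := by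
    intro q
    have h1 : x ∈ cj (q.out).1 P := by
      rw [mem_cj]
      have h2 := mem_Cx.1 (q.out).2
      have h3 : (q.out).1⁻¹ * x * (q.out).1 = x := by
        rw [mul_assoc, h2]; group
      rw [h3]
      exact LJ_le_PJ hxL
    obtain ⟨w, hw, c, hc, hc1, hc2⟩ := exists_form R hx hrV hell hxL m hm (hG (q.out).2) h1
    exact ⟨⟨w, hS w hw⟩, ⟨c, mem_Cx.2 hc1, hc⟩, hc2⟩
  choose fw fc hf using h0
  let F : ((Cx x) ⧸ P.subgroupOf (Cx x)) → Σ w : S, V ⧸ (cj (m w.1) P).subgroupOf V :=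
    fun q => ⟨fw q, QuotientGroup.mk (fc q)⟩
  have hinj : Function.Injective F := by
    intro q q' hq
    have h1 : fw q = fw q' := congrArg Sigma.fst hq
    have h2 : (cj (m (fw q).1) P).subgroupOf V = (cj (m (fw q').1) P).subgroupOf V := by rw [h1]
    have h3 : (fc q).1⁻¹ * (fc q').1 ∈ cj (m (fw q).1) P := by
      have h4 : ∀ (w w' : S) (a b : V), (⟨w, QuotientGroup.mk a⟩ : Σ w : S, V ⧸ (cj (m w.1) P).subgroupOf V) =
          ⟨w', QuotientGroup.mk b⟩ → a.1⁻¹ * b.1 ∈ cj (m w.1) P := by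
        intro w w' a b hab
        obtain ⟨h5, h6⟩ := Sigma.mk.inj hab
        subst h5
        have h7 := QuotientGroup.eq.1 (eq_of_heq h6)
        exact Subgroup.mem_subgroupOf.1 h7
      exact h4 _ _ _ _ hq
    have h4 := hf q
    have h5 := hf q'
    rw [← h1] at h5
    have h6 : (m (fw q).1)⁻¹ * ((fc q).1⁻¹ * (fc q').1) * m (fw q).1 ∈ P := mem_cj.1 h3
    have h7 : (q.out).1⁻¹ * (q'.out).1 ∈ P := by
      have h8 : (q.out).1⁻¹ * (q'.out).1 = (((fc q).1 * m (fw q).1)⁻¹ * (q.out).1)⁻¹ *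
          ((m (fw q).1)⁻¹ * ((fc q).1⁻¹ * (fc q').1) * m (fw q).1) *
          (((fc q').1 * m (fw q).1)⁻¹ * (q'.out).1) := by group
      rw [h8]
      exact mul_mem (mul_mem (inv_mem h4) h6) h5
    have h8 : (QuotientGroup.mk q.out : (Cx x) ⧸ P.subgroupOf (Cx x)) = QuotientGroup.mk q'.out :=
      QuotientGroup.eq.2 (Subgroup.mem_subgroupOf.2 h7)
    rwa [QuotientGroup.out_eq', QuotientGroup.out_eq'] at h8
  have h1 := Nat.card_le_card_of_injective F hinj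
  rw [Nat.card_sigma] at h1
  have h2 : P.relIndex (Cx x) = Nat.card ((Cx x) ⧸ P.subgroupOf (Cx x)) := rfl
  rw [h2]
  refine h1.trans ?_
  rw [← Finset.sum_coe_sort S (fun w => (cj (m w) P).relIndex V)]
  exact le_of_eq rfl

omit R in
/-- `C = A B`, `A ∩ B = 1`, both normalised by `x` -/
theorem card_split [Finite Y] {x : Y} {A B C : Subgroup Y} (hC : ∀ c ∈ C, ∃ a ∈ A, ∃ b ∈ B, c = a * b)
    (hA : x ∈ Subgroup.normalizer (A : Set Y)) (hB : x ∈ Subgroup.normalizer (B : Set Y))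
    (hAB : ∀ z ∈ A, z ∈ B → z = 1) {c : Y} (hc : c ∈ C) (hx : x * c = c * x) :
    ∃ a ∈ Cx x ⊓ A, ∃ b ∈ Cx x ⊓ B, c = a * b := by
  obtain ⟨l, hl, v, hv, rfl⟩ := hC c hc
  have hlx : x * l * x⁻¹ ∈ A := (Subgroup.mem_normalizer_iff.1 hA l).1 hl
  have hvx : x * v * x⁻¹ ∈ B := (Subgroup.mem_normalizer_iff.1 hB v).1 hv
  have h2 : l⁻¹ * (x * l * x⁻¹) = v * (x * v * x⁻¹)⁻¹ := by
    have h3 : (x * l * x⁻¹) * (x * v * x⁻¹) = l * v := by
      calc (x * l * x⁻¹) * (x * v * x⁻¹) = x * (l * v) * x⁻¹ := by group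
        _ = l * v := by rw [hx]; group
    calc l⁻¹ * (x * l * x⁻¹) = l⁻¹ * ((x * l * x⁻¹) * (x * v * x⁻¹)) * (x * v * x⁻¹)⁻¹ := by group
      _ = _ := by rw [h3]; group
  have h3 : l⁻¹ * (x * l * x⁻¹) = 1 := by
    refine hAB _ (mul_mem (inv_mem hl) hlx) ?_
    rw [h2]
    exact mul_mem hv (inv_mem hvx)
  have h4 : x * l = l * x := by
    have h5 : x * l * x⁻¹ = l := by
      calc x * l * x⁻¹ = l * (l⁻¹ * (x * l * x⁻¹)) := by group
        _ = l := by rw [h3, mul_one]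
    exact mul_inv_eq_iff_eq_mul.1 h5
  have h6 : x * v = v * x := by
    have h7 : x * (l * v) = l * (x * v) := by rw [← mul_assoc, h4, mul_assoc]
    rw [h7, mul_assoc] at hx
    exact mul_left_cancel hx
  exact ⟨l, ⟨mem_Cx.2 h4, hl⟩, v, ⟨mem_Cx.2 h6, hv⟩, rfl⟩

omit R in
theorem card_le_mul [Finite Y] {A B C : Subgroup Y} (hC : ∀ c ∈ C, ∃ a ∈ A, ∃ b ∈ B, c = a * b) :
    Nat.card C ≤ Nat.card A * Nat.card B := by
  have h0 : ∀ g : C, ∃ l : A, ∃ v : B, g.1 = l.1 * v.1 := by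
    rintro ⟨g, hg⟩
    obtain ⟨a, ha, b, hb, e⟩ := hC g hg
    exact ⟨⟨a, ha⟩, ⟨b, hb⟩, e⟩
  choose fl fv hf using h0
  rw [← Nat.card_prod]
  refine Nat.card_le_card_of_injective (fun g => (fl g, fv g)) fun g g' hg => ?_
  have h1 : fl g = fl g' := congrArg Prod.fst hg
  have h2 : fv g = fv g' := congrArg Prod.snd hg
  apply Subtype.ext
  rw [hf g, hf g', h1, h2]

omit R in
theorem relIndex_le_card [Finite Y] {A C D : Subgroup Y} (hC : ∀ c ∈ C, ∃ a ∈ A, ∃ b ∈ D, c = a * b) :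
    D.relIndex C ≤ Nat.card A := by
  have h0 : ∀ q : C ⧸ D.subgroupOf C, ∃ a : A, a.1⁻¹ * (q.out).1 ∈ D := by
    intro q
    obtain ⟨a, ha, b, hb, e⟩ := hC _ (q.out).2
    exact ⟨⟨a, ha⟩, by rw [e]; simpa using hb⟩
  choose f hf using h0
  refine Nat.card_le_card_of_injective f fun q q' hq => ?_
  have h1 := hf q
  have h2 := hf q'
  rw [← hq] at h2
  have h7 : (q.out).1⁻¹ * (q'.out).1 ∈ D := by
    have h8 : (q.out).1⁻¹ * (q'.out).1 = ((f q).1⁻¹ * (q.out).1)⁻¹ * ((f q).1⁻¹ * (q'.out).1) := by group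
    rw [h8]
    exact mul_mem (inv_mem h1) h2
  have h8 : (QuotientGroup.mk q.out : C ⧸ D.subgroupOf C) = QuotientGroup.mk q'.out :=
    QuotientGroup.eq.2 (Subgroup.mem_subgroupOf.2 h7)
  rwa [QuotientGroup.out_eq', QuotientGroup.out_eq'] at h8

theorem card_Cx_PJ_le [Finite W] [Finite Y] {J : Set I} {x : Y} (hxL : x ∈ LJ cs h T X J) :
    Nat.card (Cx x ⊓ PJ cs h T X J : Subgroup Y) ≤
      Nat.card (Cx x ⊓ LJ cs h T X J : Subgroup Y) * Nat.card (Cx x ⊓ VJ cs h X J : Subgroup Y) := by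
  refine card_le_mul fun c hc => ?_
  refine card_split (x := x) (C := PJ cs h T X J) (fun c hc => (mem_PJ R).1 hc) (Subgroup.le_normalizer hxL)
    (LJ_le_normalizer_VJ R J hxL) (fun z hz hz' => ?_) hc.2 (mem_Cx.1 hc.1)
  have h1 : z ∈ LJ cs h T X J ⊓ VJ cs h X J := ⟨hz, hz'⟩
  rwa [LJ_inf_VJ R J, Subgroup.mem_bot] at h1

/-! ### rays -/

omit R in
/-- the ray of `α` : the roots outside `J` proportional to `α` modulo `J` -/
def Ray (cs : CoxeterSystem M W) (h : IsCartan M A) (J : Set I) (α : I → ℤ) : Set (I → ℤ) :=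
  {β | β ∈ NotJ cs h J ∧ ∃ a b : ℤ, 0 < a ∧ 0 < b ∧ ∀ k, k ∉ J → a * β k = b * α k}

omit R in
/-- closed saturated sets of roots outside `J` -/
structure JSet (cs : CoxeterSystem M W) (h : IsCartan M A) (J : Set I) (S : Set (I → ℤ)) : Prop where
  sub : S ⊆ NotJ cs h J
  cl : ∀ x ∈ S, ∀ y ∈ S, ∀ z, Btwn cs h x y z → z ∈ S
  st : ∀ x ∈ RootsJ cs h J, ∀ y ∈ S, ∀ z, Btwn cs h x y z → z ∈ S
  sat : ∀ x ∈ S, Ray cs h J x ⊆ S

omit R in
theorem htJ_pos {J : Set I} {x : I → ℤ} (hx : x ∈ NotJ cs h J) : 0 < htJ J x := by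
  classical
  obtain ⟨-, h0, k, hk, hk0⟩ := hx
  rw [htJ_apply]
  refine Finset.sum_pos' (fun j _ => ?_) ⟨k, Finset.mem_univ _, by rw [if_neg hk]; exact hk0⟩
  split_ifs
  · exact le_rfl
  · exact h0 j

omit R in
theorem jset_NotJ (J : Set I) : JSet cs h J (NotJ cs h J) where
  sub := subset_rfl
  cl := fun x hx y hy z hz => by
    obtain ⟨hxr, hx0, k, hk, hk0⟩ := hx
    have h1 : 0 < z k := btwn_apply_pos hz hk0 (hy.2.1 k)
    exact ⟨hz.1, nonneg_of_pos_apply hz.1 h1, k, hk, h1⟩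
  st := fun x hx y hy z hz => btwn_NotJ hx hy hz
  sat := fun x _ _ hy => hy.1

omit R in
theorem ell_rootsJ {J : Set I} {ell : (I → ℤ) →+ ℤ} (hJ : ∀ j ∈ J, ell (sr j) = 0) {x : I → ℤ}
    (hx : ∀ k, k ∉ J → x k = 0) : ell x = 0 := by
  rw [map_eq_sum]
  refine Finset.sum_eq_zero fun k _ => ?_
  by_cases hk : k ∈ J
  · rw [hJ k hk, mul_zero]
  · rw [hx k hk, zero_mul]

omit R in
theorem ell_ray {J : Set I} {ell : (I → ℤ) →+ ℤ} (hJ : ∀ j ∈ J, ell (sr j) = 0) {x y : I → ℤ}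
    (hy : y ∈ Ray cs h J x) : ∃ a b : ℤ, 0 < a ∧ 0 < b ∧ a * ell y = b * ell x := by
  obtain ⟨-, a, b, ha, hb, e⟩ := hy
  refine ⟨a, b, ha, hb, ?_⟩
  have h1 : ell (a • y - b • x) = 0 := ell_rootsJ hJ fun k hk => by
    rw [Pi.sub_apply, Pi.smul_apply, Pi.smul_apply, smul_eq_mul, smul_eq_mul, e k hk, sub_self]
  rw [map_sub, map_zsmul, map_zsmul, smul_eq_mul, smul_eq_mul, sub_eq_zero] at h1
  exact h1

omit R in
theorem JSet.pos {J : Set I} {S : Set (I → ℤ)} (hS : JSet cs h J S) {ell : (I → ℤ) →+ ℤ}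
    (hJ : ∀ j ∈ J, ell (sr j) = 0) : JSet cs h J {x | x ∈ S ∧ 0 < ell x} where
  sub := fun x hx => hS.sub hx.1
  cl := fun x hx y hy z hz => ⟨hS.cl x hx.1 y hy.1 z hz, Nodes.Slope.btwn_pos' hz ell hx.2 hy.2.le⟩
  st := fun x hx y hy z hz => ⟨hS.st x hx y hy.1 z hz,
    Nodes.Slope.btwn_pos' hz.symm ell hy.2 (ell_rootsJ hJ hx.2).ge⟩
  sat := fun x hx y hy => by
    refine ⟨hS.sat x hx.1 hy, ?_⟩
    obtain ⟨a, b, ha, hb, e⟩ := ell_ray hJ hy
    have h1 : 0 < a * ell y := by rw [e]; exact mul_pos hb hx.2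
    exact (pos_iff_pos_of_mul_pos h1).1 ha

omit R in
theorem JSet.nonpos {J : Set I} {S : Set (I → ℤ)} (hS : JSet cs h J S) {ell : (I → ℤ) →+ ℤ}
    (hJ : ∀ j ∈ J, ell (sr j) = 0) : JSet cs h J {x | x ∈ S ∧ ell x ≤ 0} where
  sub := fun x hx => hS.sub hx.1
  cl := fun x hx y hy z hz => ⟨hS.cl x hx.1 y hy.1 z hz, Nodes.Slope.btwn_nonpos' hz ell hx.2 hy.2⟩
  st := fun x hx y hy z hz => ⟨hS.st x hx y hy.1 z hz,
    Nodes.Slope.btwn_nonpos' hz ell (ell_rootsJ hJ hx.2).le hy.2⟩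
  sat := fun x hx y hy => by
    refine ⟨hS.sat x hx.1 hy, ?_⟩
    obtain ⟨a, b, ha, hb, e⟩ := ell_ray hJ hy
    by_contra h1
    push Not at h1
    have h2 := mul_pos ha h1
    rw [e] at h2
    exact absurd (mul_nonpos_of_nonneg_of_nonpos hb.le hx.2) (not_le.2 h2)

theorem JSet.norm {J : Set I} {S : Set (I → ℤ)} (hS : JSet cs h J S) :
    LJ cs h T X J ≤ Subgroup.normalizer (RGD.Sup X S : Set Y) := by
  refine sup_le (R.T_le_normalizer fun x hx => (hS.sub hx).1) (RGD.Sup_le fun x hx => ?_)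
  refine R.le_normalizer hx.1 fun y hy => ⟨(hS.sub hy).1, Or.inr ⟨ne_neg_of_NotJ hx (hS.sub hy), fun z hz => ?_⟩⟩
  exact hS.st x hx y hy z hz

theorem JSet.split [Finite W] [Finite Y] {J : Set I} {S : Set (I → ℤ)} (hS : JSet cs h J S) {ell : (I → ℤ) →+ ℤ}
    (hJ : ∀ j ∈ J, ell (sr j) = 0) {x : Y} (hxL : x ∈ LJ cs h T X J) {c : Y} (hc : c ∈ Cx x ⊓ RGD.Sup X S) :
    ∃ a ∈ Cx x ⊓ RGD.Sup X {y | y ∈ S ∧ 0 < ell y}, ∃ b ∈ Cx x ⊓ RGD.Sup X {y | y ∈ S ∧ ell y ≤ 0}, c = a * b := by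
  have hcl : Nodes.Slope.Closed cs h S := ⟨fun y hy => (hS.sub hy).1, hS.cl⟩
  refine card_split (x := x) (C := RGD.Sup X S)
    (fun c hc => Nodes.Slope.split R hcl (htJ J) ell (fun y hy => htJ_pos (hS.sub hy)) hc)
    ((hS.pos hJ).norm R hxL) ((hS.nonpos hJ).norm R hxL) (fun z hz hz' => ?_) hc.2 (mem_Cx.1 hc.1)
  refine Nodes.Slope.sup_inf_sup' R ell (htJ J)
    (RGD.Sup_mono (S' := {x | IsRoot cs h x ∧ 0 < ell x}) ?_ hz)
    (RGD.Sup_mono (S' := {x | IsRoot cs h x ∧ ell x ≤ 0 ∧ 0 < htJ J x}) ?_ hz')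
  · intro y hy
    exact ⟨(hS.sub hy.1).1, hy.2⟩
  · intro y hy
    exact ⟨(hS.sub hy.1).1, hy.2, htJ_pos (hS.sub hy.1)⟩

omit R in
/-- two roots on different rays are separated -/
theorem exists_sep {J : Set I} {α β : I → ℤ} (hα : α ∈ NotJ cs h J) (hβ : β ∈ NotJ cs h J)
    (hne : β ∉ Ray cs h J α) : ∃ ell : (I → ℤ) →+ ℤ, (∀ j ∈ J, ell (sr j) = 0) ∧ 0 < ell α ∧ ell β ≤ 0 := by
  obtain ⟨k, hk, l, hl, hkl⟩ : ∃ k, k ∉ J ∧ ∃ l, l ∉ J ∧ α k * β l ≠ α l * β k := by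
    by_contra hcon
    push Not at hcon
    apply hne
    obtain ⟨-, h0, l, hl, hl0⟩ := hα
    obtain ⟨hβr, hβ0, k, hk, hk0⟩ := hβ
    refine ⟨⟨hβr, hβ0, k, hk, hk0⟩, α l, β l, hl0, ?_, fun k hk => ?_⟩
    · by_contra h1
      have h2 : β l = 0 := le_antisymm (not_lt.1 h1) (hβ0 l)
      have h3 := hcon k hk l hl
      rw [h2, mul_zero] at h3
      exact absurd h3 (mul_pos hl0 hk0).ne
    · rw [← hcon k hk l hl, mul_comm]
  have key : ∀ s : ℤ, ∃ ell : (I → ℤ) →+ ℤ, ∀ γ, ell γ = s * (γ k * β l - γ l * β k) := fun s =>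
    ⟨{ toFun := fun γ => s * (γ k * β l - γ l * β k)
       map_zero' := by simp
       map_add' := fun x y => by simp only [Pi.add_apply]; ring }, fun _ => rfl⟩
  have hs : ∀ s : ℤ, 0 < s * (α k * β l - α l * β k) →
      ∃ ell : (I → ℤ) →+ ℤ, (∀ j ∈ J, ell (sr j) = 0) ∧ 0 < ell α ∧ ell β ≤ 0 := by
    intro s hs
    obtain ⟨ell, hell⟩ := key s
    refine ⟨ell, fun j hj => ?_, by rw [hell]; exact hs, ?_⟩
    · rw [hell, sr_ne (show k ≠ j by rintro rfl; exact hk hj), sr_ne (show l ≠ j by rintro rfl; exact hl hj)]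
      ring
    · rw [hell]
      exact le_of_eq (by ring)
  rcases lt_or_gt_of_ne (sub_ne_zero.2 hkl) with h1 | h1
  · exact hs (-1) (by linarith)
  · exact hs 1 (by linarith)

open Classical in
theorem card_JSet_le [Finite W] [Finite Y] {J : Set I} {x : Y} (hxL : x ∈ LJ cs h T X J) (PR : Finset (I → ℤ))
    (hPR : ∀ β, β ∈ PR ↔ β ∈ NotJ cs h J)
    (φ : (I → ℤ) → ℕ) (hφ : ∀ α ∈ NotJ cs h J, Nat.card (Cx x ⊓ RGD.Sup X (Ray cs h J α) : Subgroup Y) ≤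
      ∏ β ∈ PR.filter (fun β => β ∈ Ray cs h J α), φ β) : ∀ (N : ℕ) (S : Set (I → ℤ)), JSet cs h J S → S.ncard = N →
    Nat.card (Cx x ⊓ RGD.Sup X S : Subgroup Y) ≤ ∏ β ∈ PR.filter (fun β => β ∈ S), φ β := by
  intro N
  induction N using Nat.strong_induction_on with
  | _ N ih =>
    intro S hS hN
    have hfin : S.Finite := (RGD.finite_roots (cs := cs) (h := h)).subset fun y hy => (hS.sub hy).1
    by_cases hne : S = ∅
    · subst hne
      have h1 : RGD.Sup X (∅ : Set (I → ℤ)) = ⊥ := by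
        rw [eq_bot_iff]
        exact RGD.Sup_le fun z hz => absurd hz (by simp)
      rw [h1, inf_bot_eq, Subgroup.card_bot]
      simp
    obtain ⟨α, hα⟩ := Set.nonempty_iff_ne_empty.2 hne
    by_cases hsub : S ⊆ Ray cs h J α
    · have h1 : S = Ray cs h J α := subset_antisymm hsub (hS.sat α hα)
      rw [h1]
      exact hφ α (hS.sub hα)
    · obtain ⟨β, hβ, hβn⟩ := Set.not_subset.1 hsub
      obtain ⟨ell, hJ, ha, hb⟩ := exists_sep (hS.sub hα) (hS.sub hβ) hβn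
      have h1 : ({y | y ∈ S ∧ 0 < ell y} : Set (I → ℤ)).ncard < N := by
        rw [← hN]
        refine Set.ncard_lt_ncard ⟨fun y hy => hy.1, fun h2 => ?_⟩ hfin
        exact absurd (h2 hβ).2 (not_lt.2 hb)
      have h2 : ({y | y ∈ S ∧ ell y ≤ 0} : Set (I → ℤ)).ncard < N := by
        rw [← hN]
        refine Set.ncard_lt_ncard ⟨fun y hy => hy.1, fun h2 => ?_⟩ hfin
        exact absurd (h2 hα).2 (not_le.2 ha)
      have h3 := ih _ h1 _ (hS.pos hJ) rfl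
      have h4 := ih _ h2 _ (hS.nonpos hJ) rfl
      refine (card_le_mul fun c hc => hS.split R hJ hxL hc).trans ((Nat.mul_le_mul h3 h4).trans (le_of_eq ?_))
      rw [Finset.prod_filter, Finset.prod_filter, Finset.prod_filter, ← Finset.prod_mul_distrib]
      refine Finset.prod_congr rfl fun y _ => ?_
      by_cases h5 : y ∈ S
      · rcases lt_or_ge 0 (ell y) with h7 | h7
        · simp [h5, h7]
        · simp [h5, h7, not_lt.2 h7]
      · simp [h5]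

theorem relIndex_le_w [Finite W] [Finite Y] {J : Set I} {x : Y} (hxL : x ∈ LJ cs h T X J) {w : W} {m : Y}
    (hm : Rp cs R.nsys w m) (hw : w ∈ NJ cs h J) :
    (cj m (PJ cs h T X J)).relIndex (Cx x ⊓ VJ cs h X J) ≤
      Nat.card (Cx x ⊓ RGD.Sup X {y | y ∈ NotJ cs h J ∧ 0 < (-pull cs h (htJ J) w⁻¹) y} : Subgroup Y) := by
  have hJ : ∀ j ∈ J, (-pull cs h (htJ J) w⁻¹) (sr j) = 0 := by
    intro j hj
    have h1 := PosJ_subset J (hw.1 j hj)
    rw [rootsJ_htJ] at h1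
    rw [AddMonoidHom.neg_apply, pull_apply, h1.2, neg_zero]
  refine relIndex_le_card fun c hc => ?_
  obtain ⟨a, ha, b, hb, e⟩ := (jset_NotJ (cs := cs) (h := h) J).split R hJ hxL hc
  refine ⟨a, ha, b, ?_, e⟩
  have h1 : RGD.Sup X {y | y ∈ NotJ cs h J ∧ (-pull cs h (htJ J) w⁻¹) y ≤ 0} ≤ cj m (PJ cs h T X J) := by
    rw [← PS_htJ, cj_PS R hm (fun z hz => hz.1)]
    refine RGD.Sup_le fun y hy => X_le_PS ?_
    refine ⟨hy.1.1.act _, ?_⟩
    have h2 := hy.2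
    rw [AddMonoidHom.neg_apply, pull_apply] at h2
    exact neg_nonpos.1 h2
  exact h1 hb.2

omit R in
theorem neg_iff {J : Set I} {w : W} (hw : w ∈ NJ cs h J) {y : I → ℤ} (hy : y ∈ NotJ cs h J) :
    0 < (-pull cs h (htJ J) w⁻¹) y ↔ ¬ 0 ≤ rep cs h w⁻¹ y := by
  rw [AddMonoidHom.neg_apply, pull_apply, neg_pos]
  constructor
  · intro h1 h2
    exact absurd (dom_nonneg (htJ_sr_nonneg J) h2) (not_le.2 h1)
  · intro h1
    have h2 : rep cs h w⁻¹ y ≤ 0 := ((hy.1.act w⁻¹).pos_or_neg).resolve_left h1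
    have h3 := dom_nonneg (htJ_sr_nonneg J) (neg_nonneg.2 h2)
    rw [map_neg] at h3
    refine lt_of_le_of_ne (by omega) fun h4 => ?_
    have h5 : rep cs h w⁻¹ y ∈ RootsJ cs h J := by
      rw [rootsJ_htJ]
      exact ⟨hy.1.act _, h4⟩
    have h6 := roots_of_NJ hw h5
    rw [rep_apply_inv] at h6
    obtain ⟨-, -, k, hk, hk0⟩ := hy
    exact absurd (h6.2 k hk) hk0.ne'

open Classical in
/-- **T\***, evaluation form: if `|C_{V_ρ}(x)| ≤ ∏_{β ∈ ρ} φ β` for all rays `ρ` outside `J` then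
`|C(x)| ≤ |C_{L_J}(x)| ∏_β φ β ∑_{w J = J} ∏_{w β < 0} φ β`. -/
theorem star [Finite W] [Finite Y] {J : Set I} {x : Y} {r k : ℕ} [hr : Fact r.Prime] (hx : x ^ r ^ k = 1)
    (hrV : ¬ r ∣ Nat.card (VJ cs h X J)) (hell : Ell cs h T X J x) (hxL : x ∈ LJ cs h T X J)
    (hG : Cx x ≤ GG cs h T X) (PR : Finset (I → ℤ)) (hPR : ∀ β, β ∈ PR ↔ β ∈ NotJ cs h J)
    (φ : (I → ℤ) → ℕ) (hφ : ∀ α ∈ NotJ cs h J, Nat.card (Cx x ⊓ RGD.Sup X (Ray cs h J α) : Subgroup Y) ≤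
      ∏ β ∈ PR.filter (fun β => β ∈ Ray cs h J α), φ β)
    (S : Finset W) (hS : ∀ w ∈ NJ cs h J, w ∈ S) :
    Nat.card (Cx x) ≤ Nat.card (Cx x ⊓ LJ cs h T X J : Subgroup Y) * (∏ β ∈ PR, φ β) *
      ∑ w ∈ S, ∏ β ∈ PR.filter (fun β => ¬ 0 ≤ rep cs h w β), φ β := by
  choose m hm using fun w : W => exists_rp cs R.nsys w
  set S' : Finset W := S.filter (fun w => w ∈ NJ cs h J) with hS'
  have h1 := relIndex_le R hx hrV hell hxL m hm hG S' (fun w hw => Finset.mem_filter.2 ⟨hS w hw, hw⟩)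
  have hV : Nat.card (Cx x ⊓ VJ cs h X J : Subgroup Y) ≤ ∏ β ∈ PR, φ β := by
    have h2 := card_JSet_le R hxL PR hPR φ hφ _ _ (jset_NotJ J) rfl
    refine h2.trans (le_of_eq ?_)
    congr 1
    exact Finset.filter_true_of_mem fun β hβ => (hPR β).1 hβ
  have h2 : Nat.card (Cx x) = Nat.card (Cx x ⊓ PJ cs h T X J : Subgroup Y) * (PJ cs h T X J).relIndex (Cx x) := by
    have h3 := Subgroup.card_mul_index ((PJ cs h T X J).subgroupOf (Cx x))
    rw [← h3, ← Subgroup.inf_subgroupOf_left]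
    rw [Nat.card_congr (Subgroup.subgroupOfEquivOfLe (inf_le_left : Cx x ⊓ PJ cs h T X J ≤ Cx x)).toEquiv]
    rw [Subgroup.inf_subgroupOf_left]
    rfl
  rw [h2]
  refine Nat.mul_le_mul ((card_Cx_PJ_le R hxL).trans (Nat.mul_le_mul_left _ hV)) (h1.trans ?_)
  have h3 : ∀ w ∈ S', (cj (m w) (PJ cs h T X J)).relIndex (Cx x ⊓ VJ cs h X J) ≤
      ∏ β ∈ PR.filter (fun β => ¬ 0 ≤ rep cs h w⁻¹ β), φ β := by
    intro w hw
    have hw' : w ∈ NJ cs h J := (Finset.mem_filter.1 hw).2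
    refine (relIndex_le_w R hxL (hm w) hw').trans ?_
    have hJ : ∀ j ∈ J, (-pull cs h (htJ J) w⁻¹) (sr j) = 0 := by
      intro j hj
      have h1 := PosJ_subset J (hw'.1 j hj)
      rw [rootsJ_htJ] at h1
      rw [AddMonoidHom.neg_apply, pull_apply, h1.2, neg_zero]
    refine (card_JSet_le R hxL PR hPR φ hφ _ _ ((jset_NotJ J).pos hJ) rfl).trans (le_of_eq ?_)
    rw [Finset.prod_filter, Finset.prod_filter]
    refine Finset.prod_congr rfl fun β hβ => ?_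
    have h5 := (hPR β).1 hβ
    have h6 := neg_iff hw' h5
    by_cases h7 : 0 ≤ rep cs h w⁻¹ β
    · rw [if_neg (fun h8 => (h6.1 h8.2) h7), if_neg (fun h8 => h8 h7)]
    · rw [if_pos ⟨h5, h6.2 h7⟩, if_pos h7]
  refine (Finset.sum_le_sum h3).trans ?_
  have h4 : ∑ w ∈ S', ∏ β ∈ PR.filter (fun β => ¬ 0 ≤ rep cs h w⁻¹ β), φ β =
      ∑ w ∈ S'.image (fun w => w⁻¹), ∏ β ∈ PR.filter (fun β => ¬ 0 ≤ rep cs h w β), φ β := by
    rw [Finset.sum_image (fun a _ b _ hab => inv_injective hab)]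
  rw [h4]
  refine Finset.sum_le_sum_of_subset fun w hw => ?_
  obtain ⟨v, hv, rfl⟩ := Finset.mem_image.1 hw
  exact hS _ (inv_NJ (Finset.mem_filter.1 hv).2)

end Cfsg.Agent.H82.TS
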