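import Cfsg.Agent.H82.TS.Chain
import Cfsg.Agent.H165.WL.Tool

/-!
# Poincaré sums along a chain of roots, evaluated on lists (T*, S5745; helper82)

* `fs l L` : the finset of the vectors of a list of lists of coordinates;
* `valL`, `okL` : `Chain.val`, `Chain.ok` on lists (for the kernel); `val_le`, `ok_of`.
-/

set_option autoImplicit false
set_option linter.unusedSectionVars false

namespace Cfsg.Agent.H82.TS.ChainL

open Cfsg.Agent.H82.TS.Chain Cfsg.Agent.H165.WL

variable {l : ℕ}

/-- the vectors of a list -/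
def fs (l : ℕ) (L : List (List ℤ)) : Finset (Fin l → ℤ) := (L.map (vf l)).toFinset

theorem mem_fs {L : List (List ℤ)} {x : Fin l → ℤ} : x ∈ fs l L ↔ ∃ u ∈ L, vf l u = x := by
  rw [fs, List.mem_toFinset, List.mem_map]

theorem fs_filter (L : List (List ℤ)) (p : (Fin l → ℤ) → Prop) [DecidablePred p] (b : List ℤ → Bool)
    (h : ∀ u, b u = true ↔ p (vf l u)) : (fs l L).filter p = fs l (L.filter b) := by
  ext x
  rw [Finset.mem_filter, mem_fs, mem_fs]
  constructor
  · rintro ⟨⟨u, hu, rfl⟩, h1⟩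
    exact ⟨u, List.mem_filter.2 ⟨hu, (h u).2 h1⟩, rfl⟩
  · rintro ⟨u, hu, rfl⟩
    obtain ⟨h1, h2⟩ := List.mem_filter.1 hu
    exact ⟨⟨u, h1, rfl⟩, (h u).1 h2⟩

theorem card_fs_le (L : List (List ℤ)) : (fs l L).card ≤ L.length := by
  refine (List.toFinset_card_le _).trans ?_
  rw [List.length_map]

theorem sum_toFinset_le {α : Type*} [DecidableEq α] (f : α → ℕ) (L : List α) :
    ∑ x ∈ L.toFinset, f x ≤ (L.map f).sum := by
  induction L with
  | nil => simp
  | cons a L ih =>
    rw [List.toFinset_cons, List.map_cons, List.sum_cons]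
    by_cases h : a ∈ L.toFinset
    · rw [Finset.insert_eq_self.2 h]
      exact ih.trans (Nat.le_add_left _ _)
    · rw [Finset.sum_insert h]
      exact Nat.add_le_add_left ih _

theorem sum_fs_le (f : (Fin l → ℤ) → ℕ) (g : List ℤ → ℕ) (hfg : ∀ u, f (vf l u) ≤ g u) (L : List (List ℤ)) :
    ∑ x ∈ fs l L, f x ≤ (L.map g).sum := by
  refine (sum_toFinset_le f _).trans ?_
  rw [List.map_map]
  exact List.sum_le_sum fun u _ => hfg u

/-- `Chain.val` on lists; the second list is the list of the roots orthogonal to the previous ones -/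
def valL (b : List ℤ → List ℤ → ℤ) (q : ℕ) (RR : List (List ℤ)) :
    List (List ℤ) → List (List ℤ) → List (List ℤ) → ℕ
  | _, _, [] => 1
  | P, F, μ :: L => ((RR.filter fun ν => F.all fun κ => b κ ν == b κ μ).map fun ν =>
      q ^ (P.filter fun β => decide (b β ν < 0)).length).sum * valL b q RR (P.filter fun β => b β μ == 0) (F ++ [μ]) L

/-- `Chain.ok` on lists -/
def okL (b : List ℤ → List ℤ → ℤ) (RR : List (List ℤ)) : List (List ℤ) → List (List ℤ) → Bool
  | P, [] => P.isEmpty
  | P, μ :: L => RR.contains μ && (P.all fun β => decide (0 ≤ b β μ)) && okL b RR (P.filter fun β => b β μ == 0) L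

variable {B : (Fin l → ℤ) → (Fin l → ℤ) → ℤ} {b : List ℤ → List ℤ → ℤ}
  (hb : ∀ u v, B (vf l u) (vf l v) = b u v) {P0 : Finset (Fin l → ℤ)} {RR : List (List ℤ)}

include hb

theorem psi_step {F : List (List ℤ)} {P : List (List ℤ)} (h : Psi B P0 (F.map (vf l)) = fs l P) (μ : List ℤ) :
    Psi B P0 ((F ++ [μ]).map (vf l)) = fs l (P.filter fun β => b β μ == 0) := by
  rw [← fs_filter P (fun β => B β (vf l μ) = 0) _ (fun u => by rw [beq_iff_eq, hb]), ← h]
  ext β
  simp only [Psi, Finset.mem_filter, List.map_append, List.map_cons, List.map_nil, List.mem_append,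
    List.mem_singleton]
  constructor
  · rintro ⟨h1, h2⟩
    exact ⟨⟨h1, fun κ hκ => h2 κ (Or.inl hκ)⟩, h2 _ (Or.inr rfl)⟩
  · rintro ⟨⟨h1, h2⟩, h3⟩
    refine ⟨h1, ?_⟩
    rintro κ (hκ | rfl)
    · exact h2 κ hκ
    · exact h3

theorem val_le {q : ℕ} (hq : 1 ≤ q) : ∀ (L F P : List (List ℤ)), Psi B P0 (F.map (vf l)) = fs l P →
    val B (fun _ => 0) P0 (fs l RR) q (F.map (vf l)) (L.map (vf l)) ≤ valL b q RR P F L := by
  intro L
  induction L with
  | nil => intro F P _; exact le_rfl
  | cons μ L ih =>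
    intro F P h
    rw [List.map_cons, val, valL]
    refine Nat.mul_le_mul ?_ ?_
    · rw [fs_filter RR _ (fun ν => F.all fun κ => b κ ν == b κ μ) (fun u => by
        simp only [List.all_eq_true, beq_iff_eq, true_and, List.forall_mem_map, hb])]
      refine sum_fs_le _ _ (fun ν => Nat.pow_le_pow_right hq ?_) _
      rw [h, fs_filter P _ (fun β => decide (b β ν < 0)) (fun u => by rw [decide_eq_true_iff, hb])]
      exact card_fs_le _
    · have h1 := ih (F ++ [μ]) _ (psi_step hb h μ)
      rwa [List.map_append, List.map_cons, List.map_nil] at h1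

theorem ok_of : ∀ (L F P : List (List ℤ)), Psi B P0 (F.map (vf l)) = fs l P → okL b RR P L = true →
    ok B P0 (fs l RR) (F.map (vf l)) (L.map (vf l)) := by
  intro L
  induction L with
  | nil =>
    intro F P h h1
    show Psi B P0 (F.map (vf l)) = ∅
    have h2 : P = [] := List.isEmpty_iff.1 h1
    rw [h, h2]
    rfl
  | cons μ L ih =>
    intro F P h h1
    rw [okL, Bool.and_eq_true, Bool.and_eq_true, List.contains_iff_mem, List.all_eq_true] at h1
    obtain ⟨⟨h1, h2⟩, h3⟩ := h1
    rw [List.map_cons]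
    refine ⟨mem_fs.2 ⟨μ, h1, rfl⟩, ?_, ?_⟩
    · intro β hβ
      rw [h, mem_fs] at hβ
      obtain ⟨u, hu, rfl⟩ := hβ
      have := h2 u hu
      rw [decide_eq_true_iff] at this
      rwa [hb]
    · have h4 := ih (F ++ [μ]) _ (psi_step hb h μ) h3
      rwa [List.map_append, List.map_cons, List.map_nil] at h4

end Cfsg.Agent.H82.TS.ChainL
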