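import Cfsg.Agent.H82.TS.Star
import Cfsg.Agent.KFacts.RgdCharP

/-!
# Centralizers of elliptic elements in the Levi subgroup are `p'`-groups (T*, S5745; helper82)

* `not_dvd` : `x ∈ L_J` elliptic: `p ∤ |C_{L_J}(x)|`.
-/

set_option autoImplicit false
set_option linter.unusedSectionVars false

namespace Cfsg.Agent.H82.TS

open CoxeterSystem Cfsg.Agent.ChevalleyStructure.CoxeterGeom Cfsg.Agent.Tits.Roots Cfsg.Agent.Tits.Core
  Cfsg.Agent.Tits.RootComb Cfsg.Agent.Tits.Exchange Cfsg.Agent.Nodes.Reps Cfsg.Agent.Nodes.BNOf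
  Cfsg.Agent.Nodes.StabComb Cfsg.Agent.Nodes.Bruhat Cfsg.Agent.Nodes.OppDec Cfsg.Agent.Nodes.LeviDec
  Cfsg.Agent.KFacts.RgdPar Cfsg.Agent.KFacts.RgdCharP

variable {I W Y : Type*} [Fintype I] [DecidableEq I] [Group W] [Group Y] {M : CoxeterMatrix I}
  {cs : CoxeterSystem M W} {A : I → I → ℤ} {h : IsCartan M A} {p : ℕ} {T : Subgroup Y} {n : I → Y}
  {X : (I → ℤ) → Subgroup Y}

/-- `W_J w W_K` contains `w₁` with `w₁ (K) > 0`, `w₁⁻¹ (J) > 0` -/
theorem exists_red2 (J K : Set I) : ∀ (k : ℕ) (w : W), cs.length w = k → ∃ u ∈ WJ cs J, ∃ u' ∈ WJ cs K,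
    (∀ i ∈ K, 0 ≤ rep cs h (u * w * u') (sr i)) ∧ ∀ i ∈ J, 0 ≤ rep cs h (u * w * u')⁻¹ (sr i) := by
  intro k
  induction k using Nat.strong_induction_on with
  | _ k ih =>
    intro w hw
    by_cases h1 : ∀ i ∈ K, 0 ≤ rep cs h w (sr i)
    · by_cases h2 : ∀ i ∈ J, 0 ≤ rep cs h w⁻¹ (sr i)
      · exact ⟨1, one_mem _, 1, one_mem _, by simpa using h1, by simpa using h2⟩
      · push Not at h2
        obtain ⟨i, hi, h3⟩ := h2
        have h4 : cs.length (w⁻¹ * cs.simple i) < cs.length w⁻¹ := by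
          rw [lt_iff cs h]
          exact ((nonneg_or_nonpos cs h w⁻¹ i).resolve_left h3)
        have h5 : cs.length (cs.simple i * w) < k := by
          have e1 : cs.simple i * w = (w⁻¹ * cs.simple i)⁻¹ := by rw [mul_inv_rev, inv_inv, cs.inv_simple]
          rw [e1, cs.length_inv, ← hw, ← cs.length_inv w]
          exact h4
        obtain ⟨u, hu, u', hu', h6, h7⟩ := ih _ h5 (cs.simple i * w) rfl
        refine ⟨u * cs.simple i, mul_mem hu (simple_mem_WJ cs hi), u', hu', ?_, ?_⟩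
        · rwa [mul_assoc u]
        · rwa [mul_assoc u]
    · push Not at h1
      obtain ⟨i, hi, h3⟩ := h1
      have h4 : cs.length (w * cs.simple i) < k := by
        rw [← hw, lt_iff cs h]
        exact ((nonneg_or_nonpos cs h w i).resolve_left h3)
      obtain ⟨u, hu, u', hu', h6, h7⟩ := ih _ h4 (w * cs.simple i) rfl
      refine ⟨u, hu, cs.simple i * u', mul_mem (simple_mem_WJ cs hi) hu', ?_, ?_⟩
      · rwa [show u * w * (cs.simple i * u') = u * (w * cs.simple i) * u' by group]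
      · rwa [show u * w * (cs.simple i * u') = u * (w * cs.simple i) * u' by group]

variable (R : RGD cs h p T n X)

include R

/-- `x ∈ P_J ∩ m P_K m⁻¹`, `x` elliptic for `J`: `w⁻¹ Φ_J ⊆ Φ_K` -/
theorem stab2 [Finite W] {J K : Set I} {x : Y} (hell : Ell cs h T X J x) (hx : x ∈ PJ cs h T X J) {w : W} {m : Y}
    (hm : Rp cs R.nsys w m) (hxm : x ∈ cj m (PJ cs h T X K)) (hw : ∀ i ∈ J, 0 ≤ rep cs h w⁻¹ (sr i)) {i : I}
    (hi : i ∈ J) : rep cs h w⁻¹ (sr i) ∈ RootsJ cs h K := by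
  classical
  set f := htJ (I := I) J with hf
  set g := pull cs h (htJ (I := I) K) w⁻¹ with hg
  have h1 : x ∈ PS T X {z | IsRoot cs h z ∧ ∀ φ ∈ [f, g], 0 ≤ φ z} := by
    refine (inter R [f, g] (PJ_le_GG hx) fun φ hφ => ?_).1
    simp only [List.mem_cons, List.not_mem_nil, or_false] at hφ
    rcases hφ with rfl | rfl
    · rw [PS_htJ]; exact hx
    · rw [← PS_htJ, cj_PS R hm (fun z hz => hz.1)] at hxm
      refine PS_mono (fun z hz => ?_) hxm
      have hz' : rep cs h w⁻¹ z ∈ Half cs h (htJ (I := I) K) := hz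
      refine ⟨?_, hz'.2⟩
      have := hz'.1.act w
      rwa [rep_apply_inv] at this
  obtain ⟨N, hN, hN2⟩ := exists_bound (cs := cs) (h := h) g
  have hgi : ∀ i ∈ J, 0 ≤ g (sr i) := fun i hi => dom_nonneg (htJ_sr_nonneg K) (hw i hi)
  have hfi : ∀ i ∈ J, f (sr i) = 0 := fun i hi => by rw [hf, htJ_sr, if_pos hi]
  have hfo : ∀ i, i ∉ J → f (sr i) = 1 := fun i hi => by rw [hf, htJ_sr, if_neg hi]
  set l : (I → ℤ) →+ ℤ := N • f + g with hl
  have hlap : ∀ z, l z = N * f z + g z := fun z => by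
    rw [hl, AddMonoidHom.add_apply, AddMonoidHom.smul_apply, smul_eq_mul]
  have hlo : ∀ i, i ∉ J → 0 < l (sr i) := by
    intro i hi
    rw [hlap, hfo i hi]
    have := hN2 _ (isRoot_sr cs h i)
    rw [abs_lt] at this
    omega
  have hli : ∀ i ∈ J, l (sr i) = g (sr i) := by
    intro i hi
    rw [hlap, hfi i hi]
    omega
  have hl0 : ∀ i, 0 ≤ l (sr i) := by
    intro i
    by_cases hi : i ∈ J
    · rw [hli i hi]; exact hgi i hi
    · exact (hlo i hi).le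
  have h2 : x ∈ PJ cs h T X {i | l (sr i) = 0} := by
    rw [← PS_half_of_dom (cs := cs) (h := h) (T := T) (X := X) hl0]
    refine PS_mono (Ω' := Half cs h l) ?_ h1
    intro z hz
    refine ⟨hz.1, ?_⟩
    have ha := hz.2 f (by simp)
    have hb := hz.2 g (by simp)
    rw [hlap]
    exact add_nonneg (mul_nonneg hN.le ha) hb
  have h3 : {i | l (sr i) = 0} ⊆ J := by
    intro i hi
    by_contra hiJ
    have := hlo i hiJ
    rw [hi] at this
    exact lt_irrefl _ this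
  have h4 := hell _ h3 1 (by rwa [cj_one])
  have h5 : i ∈ {i | l (sr i) = 0} := by rw [h4]; exact hi
  have h6 : g (sr i) = 0 := by
    rw [← hli i hi]; exact h5
  rw [rootsJ_htJ]
  exact ⟨(isRoot_sr cs h i).act _, h6⟩

/-- an elliptic element of `L_J` commutes with no element `≠ 1` of order `p` of `L_J` -/
theorem eq_one_of_comm [Finite W] [Finite Y] [hp : Fact p.Prime] (hBT : BT cs h p T X) (hG : GG cs h T X = ⊤)
    {J : Set I} {x : Y} (hell : Ell cs h T X J x) (hxL : x ∈ LJ cs h T X J) {u : Y} (hu : u ∈ LJ cs h T X J)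
    (hup : u ^ p = 1) (hxu : x * u = u * x) : u = 1 := by
  classical
  by_contra hu1
  set Q : Subgroup Y := Subgroup.zpowers u ⊔ VJ cs h X J with hQ
  have huP : IsPGroup p (Subgroup.zpowers u) := by
    refine IsPGroup.of_card (n := 1) ?_
    rw [Nat.card_zpowers, pow_one]
    exact orderOf_eq_prime hup hu1
  have huV : Subgroup.zpowers u ≤ Subgroup.normalizer (VJ cs h X J : Set Y) := by
    rw [Subgroup.zpowers_le]
    exact LJ_le_normalizer_VJ R J hu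
  have hQp : IsPGroup p Q := huP.to_sup_of_normal_right' (isPGroup_VJ R J) huV
  have huQ : u ∈ Q := (le_sup_left : Subgroup.zpowers u ≤ Q) (Subgroup.mem_zpowers u)
  have hQ1 : Q ≠ ⊥ := fun h1 => hu1 (Subgroup.mem_bot.1 (h1 ▸ huQ))
  obtain ⟨g, K, hK, hQV, hNP⟩ := hBT Q hQp hQ1
  have hxQ : x ∈ Subgroup.normalizer (Q : Set Y) := by
    rw [mem_normalizer_iff_cj, hQ, cj_sup, mem_normalizer_iff_cj.1 (LJ_le_normalizer_VJ R J hxL)]
    congr 1
    have h1 : x * u * x⁻¹ = u := mul_inv_eq_iff_eq_mul.2 hxu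
    show (Subgroup.zpowers u).map (MulAut.conj x).toMonoidHom = _
    rw [MonoidHom.map_zpowers]
    show Subgroup.zpowers (x * u * x⁻¹) = _
    rw [h1]
  have hxg : x ∈ cj g (PJ cs h T X K) := hNP hxQ
  obtain ⟨w0, hc⟩ := (mem_GG R).1 (show g ∈ GG cs h T X by rw [hG]; trivial)
  obtain ⟨b, hb, m0, hm0, b', hb', rfl⟩ := hc
  obtain ⟨u1, hu1', u2, hu2, h1, h2⟩ := exists_red2 (cs := cs) (h := h) J K _ w0 rfl
  obtain ⟨a, ha⟩ := exists_rp cs R.nsys u1
  obtain ⟨a', ha'⟩ := exists_rp cs R.nsys u2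
  set w := u1 * w0 * u2 with hw
  set m := a * m0 * a' with hm
  have hm1 : Rp cs R.nsys w m := (ha.mul hm0).mul ha'
  set y := b * a⁻¹ with hy
  set y' := a'⁻¹ * b' with hy'
  have hyP : y ∈ PJ cs h T X J := mul_mem (B_le_PJ hb) (inv_mem (LJ_le_PJ (rp_mem_LJ R hu1' ha)))
  have hyP' : y' ∈ PJ cs h T X K := mul_mem (inv_mem (LJ_le_PJ (rp_mem_LJ R hu2 ha'))) (B_le_PJ hb')
  have e : b * m0 * b' = y * m * y' := by rw [hy, hm, hy']; group
  rw [e] at hxg hQV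
  have hcjV : ∀ (L : Set I), ∀ z ∈ PJ cs h T X L, cj z (VJ cs h X L) = VJ cs h X L := fun L z hz =>
    mem_normalizer_iff_cj.1 (PJ_le_normalizer_VJ R L hz)
  have hQV' : cj y⁻¹ Q ≤ cj m (VJ cs h X K) := by
    have h3 := cj_mono y⁻¹ hQV
    rwa [cj_mul, hcjV K y' hyP', cj_mul, cj_inv_cj] at h3
  have hx1 : y⁻¹ * x * y ∈ cj m (PJ cs h T X K) := by
    rw [cj_mul, cj_eq_of_mem hyP', cj_mul] at hxg
    exact mem_cj.1 hxg
  have hx2 : y⁻¹ * x * y ∈ PJ cs h T X J := mul_mem (mul_mem (inv_mem hyP) (LJ_le_PJ hxL)) hyP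
  have h3 : ∀ i ∈ J, rep cs h w⁻¹ (sr i) ∈ RootsJ cs h K := fun i hi =>
    stab2 R (hell.conj y) hx2 hm1 hx1 h2 hi
  have h4 : ∀ δ ∈ RootsJ cs h J, rep cs h w⁻¹ δ ∈ RootsJ cs h K := by
    intro δ hδ
    refine ⟨hδ.1.act _, fun k hk => ?_⟩
    rw [H470.EPK.rep_coord]
    refine Finset.sum_eq_zero fun j _ => ?_
    by_cases hj : j ∈ J
    · rw [(h3 j hj).2 k hk, mul_zero]
    · rw [hδ.2 j hj, zero_mul]
  have hLL : LJ cs h T X J ≤ cj m (LJ cs h T X K) := by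
    unfold LJ
    rw [cj_sup, cj_T R hm1, cj_Sup_eq R hm1 (fun z hz => hz.1)]
    exact sup_le_sup_left (RGD.Sup_mono fun δ hδ => h4 δ hδ) _
  have hVV : VJ cs h X J ≤ cj m (VJ cs h X K) := by
    have h5 : cj y⁻¹ (VJ cs h X J) ≤ cj m (VJ cs h X K) := (cj_mono _ le_sup_right).trans hQV'
    rwa [hcjV J _ (inv_mem hyP)] at h5
  obtain ⟨l, hl, v, hv, e2⟩ := (mem_PJ R).1 hyP
  have h5 : y⁻¹ * u * y ∈ cj m (VJ cs h X K) := by
    refine hQV' ?_
    have := (conj_mem_cj (g := y⁻¹) (A := Q)).2 huQ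
    rwa [inv_inv] at this
  have h6 : l⁻¹ * u * l ∈ cj m (VJ cs h X K) := by
    have h7 : l⁻¹ * u * l = v * (y⁻¹ * u * y) * v⁻¹ := by rw [e2]; group
    rw [h7]
    exact mul_mem (mul_mem (hVV hv) h5) (inv_mem (hVV hv))
  have h7 : l⁻¹ * u * l ∈ cj m (LJ cs h T X K) := hLL (mul_mem (mul_mem (inv_mem hl) hu) hl)
  have h8 : m⁻¹ * (l⁻¹ * u * l) * m ∈ LJ cs h T X K ⊓ VJ cs h X K := ⟨mem_cj.1 h7, mem_cj.1 h6⟩
  rw [LJ_inf_VJ R K, Subgroup.mem_bot] at h8
  apply hu1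
  have h9 : u = l * (m * (m⁻¹ * (l⁻¹ * u * l) * m) * m⁻¹) * l⁻¹ := by group
  rw [h9, h8]; group

/-- `x ∈ L_J` elliptic: `p ∤ |C_{L_J}(x)|` -/
theorem not_dvd [Finite W] [Finite Y] [hp : Fact p.Prime] (hBT : BT cs h p T X) (hG : GG cs h T X = ⊤)
    {J : Set I} {x : Y} (hell : Ell cs h T X J x) (hxL : x ∈ LJ cs h T X J) :
    ¬ p ∣ Nat.card (Cx x ⊓ LJ cs h T X J : Subgroup Y) := by
  intro h1
  obtain ⟨⟨u, hu⟩, hup⟩ := exists_prime_orderOf_dvd_card' p h1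
  have h2 : orderOf u = p := by rw [← hup, ← Subgroup.orderOf_coe]
  have h3 := eq_one_of_comm R hBT hG hell hxL hu.2 (by rw [← h2]; exact pow_orderOf_eq_one u) (mem_Cx.1 hu.1)
  rw [h3, orderOf_one] at h2
  exact hp.out.one_lt.ne h2

/-- `|C_{L_J}(x)|` divides the `p'`-part of `|L_J|` -/
theorem card_CL_dvd [Finite W] [Finite Y] [hp : Fact p.Prime] (hBT : BT cs h p T X) (hG : GG cs h T X = ⊤)
    {J : Set I} {x : Y} (hell : Ell cs h T X J x) (hxL : x ∈ LJ cs h T X J) {a N : ℕ}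
    (hN : Nat.card (LJ cs h T X J) = p ^ a * N) : Nat.card (Cx x ⊓ LJ cs h T X J : Subgroup Y) ∣ N := by
  have h1 : Nat.card (Cx x ⊓ LJ cs h T X J : Subgroup Y) ∣ p ^ a * N := by
    rw [← hN]; exact Subgroup.card_dvd_of_le inf_le_right
  refine Nat.Coprime.dvd_of_dvd_mul_left ?_ h1
  exact Nat.Coprime.pow_right _ ((Nat.Prime.coprime_iff_not_dvd hp.out).2 (not_dvd R hBT hG hell hxL)).symm

end Cfsg.Agent.H82.TS
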